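import Mathlib

/-!
# Huppert's theorem on solvable transitive linear groups: shared definitions
-/

set_option autoImplicit false

namespace Cfsg.Agent.Lib.Helper53.Hup

/-- `N` is of symplectic type over `A`: `A ≤ N` is central in `N`, `N/A` is abelian and `Z(N) ≤ A`. -/
structure SympPair {G : Type*} [Group G] (A N : Subgroup G) : Prop where
  le : A ≤ N
  central : ∀ a ∈ A, ∀ l ∈ N, a * l = l * a
  comm : ∀ l ∈ N, ∀ l' ∈ N, l * l' * l⁻¹ * l'⁻¹ ∈ A
  center : ∀ l ∈ N, (∀ l' ∈ N, l * l' = l' * l) → l ∈ A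

/-- `s` is a primitive prime divisor of `p ^ n - 1`. -/
def PPD (p n s : ℕ) : Prop :=
  s.Prime ∧ s ∣ p ^ n - 1 ∧ ∀ k : ℕ, 0 < k → k < n → ¬ s ∣ p ^ k - 1

/-- the representation is one-dimensional semilinear over a field structure on `V`. -/
def Semilin {p : ℕ} {V : Type*} [AddCommGroup V] [Module (ZMod p) V] {G : Type*} [Group G]
    (ρ : G →* (V ≃ₗ[ZMod p] V)) : Prop :=
  ∃ (F : Type) (_ : Field F) (_ : Fintype F) (e : V ≃+ F),
    ∀ g : G, ∃ (a : F) (σ : F ≃+* F), ∀ v : V, e (ρ g v) = a * σ (e v)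

/-- transitivity on the nonzero vectors. -/
def Trans {p : ℕ} {V : Type*} [AddCommGroup V] [Module (ZMod p) V] {G : Type*} [Group G]
    (ρ : G →* (V ≃ₗ[ZMod p] V)) : Prop :=
  ∀ v w : V, v ≠ 0 → w ≠ 0 → ∃ g : G, ρ g v = w

end Cfsg.Agent.Lib.Helper53.Hup
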