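import Mathlib

/-!
# Irreducible abelian normal subgroups give semilinear groups

If a set `S` of pairwise commuting automorphisms of a finite `ZMod p`-space `V` is irreducible then the ring of
endomorphisms commuting with `S` is a finite field `F`, `V` is one-dimensional over it, and every automorphism
normalizing `S` is of the shape `x ↦ a * σ x`.
-/

set_option autoImplicit false

namespace Cfsg.Agent.Lib.Helper53.Semi

universe u

theorem exists_field_model (R : Type u) [Ring R] [Finite R] [IsDomain R] :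
    ∃ (F : Type) (_ : Field F) (_ : Fintype F), Nonempty (F ≃+* R) := by
  letI : Field R := (Finite.isDomain_to_isField R).toField
  haveI : Small.{0} R := inferInstance
  exact ⟨Shrink.{0} R, inferInstance, Fintype.ofFinite _, ⟨Shrink.ringEquiv R⟩⟩

variable {p : ℕ} [Fact p.Prime] {V : Type u} [AddCommGroup V] [Module (ZMod p) V]

/-- endomorphisms commuting with all of `S`. -/
def cent (S : Set (V ≃ₗ[ZMod p] V)) : Subring (Module.End (ZMod p) V) where
  carrier := {f | ∀ s ∈ S, ∀ v, s (f v) = f (s v)}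
  mul_mem' := by
    intro a b ha hb s hs v
    rw [Module.End.mul_apply, Module.End.mul_apply, ha s hs, hb s hs]
  one_mem' := by
    intro s _ v
    rfl
  add_mem' := by
    intro a b ha hb s hs v
    rw [LinearMap.add_apply, LinearMap.add_apply, map_add, ha s hs, hb s hs]
  zero_mem' := by
    intro s _ v
    simp
  neg_mem' := by
    intro a ha s hs v
    rw [LinearMap.neg_apply, LinearMap.neg_apply, map_neg, ha s hs]

theorem mem_cent {S : Set (V ≃ₗ[ZMod p] V)} {f : Module.End (ZMod p) V} :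
    f ∈ cent S ↔ ∀ s ∈ S, ∀ v, s (f v) = f (s v) := Iff.rfl

theorem injective_of_mem {S : Set (V ≃ₗ[ZMod p] V)}
    (hirr : ∀ W : Submodule (ZMod p) V, (∀ s ∈ S, ∀ v ∈ W, s v ∈ W) → W = ⊥ ∨ W = ⊤)
    {f : Module.End (ZMod p) V} (hf : f ∈ cent S) (h0 : f ≠ 0) : Function.Injective f := by
  rcases hirr (LinearMap.ker f) (by
    intro s hs v hv
    rw [LinearMap.mem_ker] at hv ⊢
    rw [← hf s hs, hv, map_zero]) with h | h
  · exact LinearMap.ker_eq_bot.mp h
  · exact absurd (LinearMap.ker_eq_top.mp h) h0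

theorem isDomain_cent [Nontrivial V] {S : Set (V ≃ₗ[ZMod p] V)}
    (hirr : ∀ W : Submodule (ZMod p) V, (∀ s ∈ S, ∀ v ∈ W, s v ∈ W) → W = ⊥ ∨ W = ⊤) :
    IsDomain (cent S) := by
  haveI : NoZeroDivisors (cent S) := by
    refine ⟨?_⟩
    intro a b hab
    by_cases ha : a = 0
    · exact Or.inl ha
    · right
      have hinj := injective_of_mem hirr a.2 (fun h => ha (Subtype.ext h))
      apply Subtype.ext
      ext v
      apply hinj
      have : (a.1 * b.1) v = 0 := by
        have := congrArg Subtype.val hab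
        change a.1 * b.1 = 0 at this
        rw [this]; rfl
      rw [Module.End.mul_apply] at this
      rw [this]
      simp
  exact NoZeroDivisors.to_isDomain _

/-- conjugation by `g` on the commuting ring. -/
def conjFun (S : Set (V ≃ₗ[ZMod p] V)) (g : V ≃ₗ[ZMod p] V)
    (h2 : ∀ s ∈ S, g⁻¹ * s * g ∈ S) (f : cent S) : cent S :=
  ⟨(g : V →ₗ[ZMod p] V) ∘ₗ f.1 ∘ₗ (g.symm : V →ₗ[ZMod p] V), by
    intro s hs v
    have h := f.2 _ (h2 s hs) (g.symm v)
    simp only [LinearMap.comp_apply, LinearEquiv.coe_coe]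
    have e1 : ∀ w, (g⁻¹ * s * g) w = g.symm (s (g w)) := fun w => rfl
    rw [e1, e1, LinearEquiv.apply_symm_apply] at h
    rw [← h, LinearEquiv.apply_symm_apply]⟩

theorem conjFun_apply (S : Set (V ≃ₗ[ZMod p] V)) (g : V ≃ₗ[ZMod p] V)
    (h2 : ∀ s ∈ S, g⁻¹ * s * g ∈ S) (f : cent S) (v : V) :
    (conjFun S g h2 f).1 v = g (f.1 (g.symm v)) := rfl

/-- conjugation by `g` as a ring automorphism of the commuting ring. -/
def conjEquiv (S : Set (V ≃ₗ[ZMod p] V)) (g : V ≃ₗ[ZMod p] V)
    (h1 : ∀ s ∈ S, g * s * g⁻¹ ∈ S) (h2 : ∀ s ∈ S, g⁻¹ * s * g ∈ S) : cent S ≃+* cent S where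
  toFun := conjFun S g h2
  invFun := conjFun S g⁻¹ (by simpa using h1)
  left_inv := by
    intro f
    apply Subtype.ext
    ext v
    rw [conjFun_apply, conjFun_apply]
    change g.symm (g (f.1 (g.symm (g v)))) = _
    simp
  right_inv := by
    intro f
    apply Subtype.ext
    ext v
    rw [conjFun_apply, conjFun_apply]
    change g (g.symm (f.1 (g (g.symm v)))) = _
    simp
  map_mul' := by
    intro a b
    apply Subtype.ext
    ext v
    change g (a.1 (b.1 (g.symm v))) = g (a.1 (g.symm (g (b.1 (g.symm v)))))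
    simp
  map_add' := by
    intro a b
    apply Subtype.ext
    ext v
    change g (a.1 (g.symm v) + b.1 (g.symm v)) = g (a.1 (g.symm v)) + g (b.1 (g.symm v))
    simp

theorem main [Finite V] [Nontrivial V] (S : Set (V ≃ₗ[ZMod p] V))
    (hcomm : ∀ s ∈ S, ∀ t ∈ S, s * t = t * s)
    (hirr : ∀ W : Submodule (ZMod p) V, (∀ s ∈ S, ∀ v ∈ W, s v ∈ W) → W = ⊥ ∨ W = ⊤) :
    ∃ (F : Type) (_ : Field F) (_ : Fintype F) (e : V ≃+ F),
      ∀ g : V ≃ₗ[ZMod p] V, (∀ s ∈ S, g * s * g⁻¹ ∈ S) → (∀ s ∈ S, g⁻¹ * s * g ∈ S) →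
        ∃ (a : F) (σ : F ≃+* F), ∀ v : V, e (g v) = a * σ (e v) := by
  classical
  haveI : Finite (Module.End (ZMod p) V) :=
    Finite.of_injective (fun f : Module.End (ZMod p) V => (f : V → V)) DFunLike.coe_injective
  haveI := isDomain_cent hirr
  obtain ⟨F, iF, iFt, ⟨ψ⟩⟩ := exists_field_model (cent S)
  obtain ⟨v₀, hv₀⟩ := exists_ne (0 : V)
  -- evaluation at `v₀`
  let ev : cent S →+ V :=
    { toFun := fun f => f.1 v₀
      map_zero' := rfl
      map_add' := fun a b => rfl }
  have hev_inj : Function.Injective ev := by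
    rw [injective_iff_map_eq_zero]
    intro f hf
    by_contra hne
    have hinj := injective_of_mem hirr f.2 (fun h => hne (Subtype.ext h))
    exact hv₀ (hinj (by rw [map_zero]; exact hf))
  have hSmem : ∀ s ∈ S, ((s : V →ₗ[ZMod p] V) : Module.End (ZMod p) V) ∈ cent S := by
    intro s hs t ht v
    exact congrArg (fun x : V ≃ₗ[ZMod p] V => x v) (hcomm t ht s hs)
  have hev_surj : Function.Surjective ev := by
    let W : Submodule (ZMod p) V :=
      { carrier := Set.range ev
        add_mem' := by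
          rintro _ _ ⟨a, rfl⟩ ⟨b, rfl⟩
          exact ⟨a + b, map_add ev a b⟩
        zero_mem' := ⟨0, map_zero ev⟩
        smul_mem' := by
          rintro c _ ⟨a, rfl⟩
          obtain ⟨n, rfl⟩ := ZMod.natCast_zmod_surjective c
          refine ⟨n • a, ?_⟩
          rw [map_nsmul, Nat.cast_smul_eq_nsmul] }
    rcases hirr W (by
      rintro s hs _ ⟨a, rfl⟩
      exact ⟨⟨_, hSmem s hs⟩ * a, rfl⟩) with h | h
    · exfalso
      have : v₀ ∈ W := ⟨1, rfl⟩
      rw [h, Submodule.mem_bot] at this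
      exact hv₀ this
    · intro v
      have : v ∈ W := by rw [h]; trivial
      exact this
  let evE : cent S ≃+ V := AddEquiv.ofBijective ev ⟨hev_inj, hev_surj⟩
  have hevE : ∀ f : cent S, evE f = f.1 v₀ := fun f => rfl
  refine ⟨F, iF, iFt, evE.symm.trans ψ.symm.toAddEquiv, ?_⟩
  intro g h1 h2
  obtain ⟨c, hc⟩ := hev_surj (g v₀)
  refine ⟨ψ.symm c, ψ.trans ((conjEquiv S g h1 h2).trans ψ.symm), ?_⟩
  intro v
  obtain ⟨f, rfl⟩ := evE.surjective v
  have key : g (evE f) = evE (conjEquiv S g h1 h2 f * c) := by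
    rw [hevE, hevE]
    change _ = g (f.1 (g.symm (c.1 v₀)))
    have : c.1 v₀ = g v₀ := hc
    rw [this, LinearEquiv.symm_apply_apply]
  rw [key]
  simp only [AddEquiv.trans_apply, AddEquiv.symm_apply_apply, RingEquiv.trans_apply]
  change ψ.symm _ = _ * ψ.symm (conjEquiv S g h1 h2 (ψ (ψ.symm f)))
  rw [map_mul, RingEquiv.apply_symm_apply, mul_comm]

end Cfsg.Agent.Lib.Helper53.Semi
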