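import Mathlib
import Cfsg.Agent.Lib.Helper53.Hup.Defs
import Cfsg.Agent.Lib.Helper53.Hup.Semi

/-!
# The field attached to an abelian normal subgroup of a transitive linear group
-/

set_option autoImplicit false
set_option linter.style.haveILetI false

namespace Cfsg.Agent.Lib.Helper53.Hup

open Cfsg.Agent.Lib.Helper53.Semi

universe u

variable {p : ℕ} [Fact p.Prime] {V : Type u} [AddCommGroup V] [Module (ZMod p) V]

/-- the centre of the commutant of `S`. -/
def dc (S : Set (V ≃ₗ[ZMod p] V)) : Subalgebra (ZMod p) (Module.End (ZMod p) V) where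
  carrier := {f | f ∈ cent S ∧ ∀ h ∈ cent S, f * h = h * f}
  mul_mem' := by
    rintro a b ⟨ha, ha'⟩ ⟨hb, hb'⟩
    refine ⟨(cent S).mul_mem ha hb, fun h hh => ?_⟩
    rw [mul_assoc, hb' h hh, ← mul_assoc, ha' h hh, mul_assoc]
  add_mem' := by
    rintro a b ⟨ha, ha'⟩ ⟨hb, hb'⟩
    refine ⟨(cent S).add_mem ha hb, fun h hh => ?_⟩
    rw [add_mul, mul_add, ha' h hh, hb' h hh]
  algebraMap_mem' := by
    intro c
    refine ⟨?_, fun h _ => ?_⟩
    · intro s _ v
      simp [Module.algebraMap_end_apply]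
    · exact Algebra.commutes c h

theorem mem_dc {S : Set (V ≃ₗ[ZMod p] V)} {f : Module.End (ZMod p) V} :
    f ∈ dc S ↔ f ∈ cent S ∧ ∀ h ∈ cent S, f * h = h * f := Iff.rfl

theorem dc_comm (S : Set (V ≃ₗ[ZMod p] V)) : ∀ f ∈ dc S, ∀ h ∈ dc S, f * h = h * f :=
  fun _ hf _ hh => hf.2 _ hh.1

theorem toLinearMap_mem_cent_iff {S : Set (V ≃ₗ[ZMod p] V)} {g : V ≃ₗ[ZMod p] V} :
    g.toLinearMap ∈ cent S ↔ ∀ s ∈ S, s * g = g * s := by
  rw [mem_cent]
  constructor
  · intro h s hs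
    ext v
    exact h s hs v
  · intro h s hs v
    exact congrArg (fun x : V ≃ₗ[ZMod p] V => x v) (h s hs)

theorem mem_dc_of_mem {S : Set (V ≃ₗ[ZMod p] V)} (hcomm : ∀ s ∈ S, ∀ t ∈ S, s * t = t * s)
    {s : V ≃ₗ[ZMod p] V} (hs : s ∈ S) : s.toLinearMap ∈ dc S := by
  refine ⟨toLinearMap_mem_cent_iff.mpr fun t ht => hcomm t ht s hs, fun h hh => ?_⟩
  ext v
  exact hh s hs v

/-- conjugation of an endomorphism. -/
theorem conj_mem_cent {S : Set (V ≃ₗ[ZMod p] V)} (g : V ≃ₗ[ZMod p] V)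
    (h2 : ∀ s ∈ S, g⁻¹ * s * g ∈ S) {f : Module.End (ZMod p) V} (hf : f ∈ cent S) :
    g.toLinearMap * f * g.symm.toLinearMap ∈ cent S :=
  (conjFun S g h2 ⟨f, hf⟩).2

theorem conj_mem_dc {S : Set (V ≃ₗ[ZMod p] V)} (g : V ≃ₗ[ZMod p] V)
    (h1 : ∀ s ∈ S, g * s * g⁻¹ ∈ S) (h2 : ∀ s ∈ S, g⁻¹ * s * g ∈ S)
    {f : Module.End (ZMod p) V} (hf : f ∈ dc S) :
    g.toLinearMap * f * g.symm.toLinearMap ∈ dc S := by
  refine ⟨conj_mem_cent g h2 hf.1, fun h hh => ?_⟩
  have h3 : g.symm.toLinearMap * h * g.toLinearMap ∈ cent S := by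
    have := conj_mem_cent (S := S) g⁻¹ (by simpa using h1) hh
    exact this
  have h4 := hf.2 _ h3
  have e1 : g.symm.toLinearMap * g.toLinearMap = (1 : Module.End (ZMod p) V) := by
    ext v; simp
  have e2 : g.toLinearMap * g.symm.toLinearMap = (1 : Module.End (ZMod p) V) := by
    ext v; simp
  calc g.toLinearMap * f * g.symm.toLinearMap * h
      = g.toLinearMap * (f * (g.symm.toLinearMap * h * g.toLinearMap)) * g.symm.toLinearMap := by
        simp only [mul_assoc, e2, mul_one]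
    _ = g.toLinearMap * ((g.symm.toLinearMap * h * g.toLinearMap) * f) * g.symm.toLinearMap := by
        rw [h4]
    _ = h * (g.toLinearMap * f * g.symm.toLinearMap) := by
        simp only [← mul_assoc, e2, one_mul]

section general

variable (K : Subalgebra (ZMod p) (Module.End (ZMod p) V))

/-- the `K`-orbit of a vector. -/
def orb (v : V) : Set V := {u | ∃ f ∈ K, f v = u}

variable {K}

theorem orb_subset {u v : V} (hu : u ∈ orb K v) : orb K u ⊆ orb K v := by
  obtain ⟨f, hf, rfl⟩ := hu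
  rintro _ ⟨h, hh, rfl⟩
  exact ⟨h * f, K.mul_mem hh hf, rfl⟩

theorem self_mem_orb (v : V) : v ∈ orb K v := ⟨1, K.one_mem, rfl⟩

variable {G : Type*} [Group G] {ρ : G →* (V ≃ₗ[ZMod p] V)}

theorem ncard_orb_le [Finite V] (htrans : Trans ρ)
    (hconj : ∀ g : G, ∀ f ∈ K, (ρ g).toLinearMap * f * (ρ g).symm.toLinearMap ∈ K)
    {v w : V} (hv : v ≠ 0) (hw : w ≠ 0) : (orb K v).ncard ≤ (orb K w).ncard := by
  obtain ⟨g, hg⟩ := htrans v w hv hw
  refine Set.ncard_le_ncard_of_injOn (ρ g) ?_ (ρ g).injective.injOn (Set.toFinite _)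
  rintro _ ⟨f, hf, rfl⟩
  refine ⟨_, hconj g f hf, ?_⟩
  rw [← hg]
  simp

theorem mem_orb_symm [Finite V] (htrans : Trans ρ)
    (hconj : ∀ g : G, ∀ f ∈ K, (ρ g).toLinearMap * f * (ρ g).symm.toLinearMap ∈ K)
    {u v : V} (hu0 : u ≠ 0) (hv0 : v ≠ 0) (hu : u ∈ orb K v) : v ∈ orb K u := by
  have h1 := Set.eq_of_subset_of_ncard_le (orb_subset hu) (ncard_orb_le htrans hconj hv0 hu0)
    (Set.toFinite _)
  rw [h1]
  exact self_mem_orb v

/-- **Field lemma.** -/
theorem inj_of_trans [Finite V] (hKc : ∀ f ∈ K, ∀ h ∈ K, f * h = h * f) (htrans : Trans ρ)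
    (hconj : ∀ g : G, ∀ f ∈ K, (ρ g).toLinearMap * f * (ρ g).symm.toLinearMap ∈ K) :
    ∀ f ∈ K, f ≠ 0 → Function.Injective f := by
  intro x hx hx0
  rw [injective_iff_map_eq_zero]
  intro v₁ hv₁
  by_contra hv₁0
  apply hx0
  ext v₂
  by_contra hxv₂
  rw [LinearMap.zero_apply] at hxv₂
  have hv₂0 : v₂ ≠ 0 := by
    rintro rfl
    exact hxv₂ (map_zero x)
  have hx3 : x (v₁ + v₂) = x v₂ := by rw [map_add, hv₁, zero_add]
  have hv₃0 : v₁ + v₂ ≠ 0 := by
    intro h
    rw [h, map_zero] at hx3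
    exact hxv₂ hx3.symm
  obtain ⟨y, hy, hy2⟩ := mem_orb_symm htrans hconj hxv₂ hv₂0 ⟨x, hx, rfl⟩
  have h1 : v₂ ∈ orb K (v₁ + v₂) := ⟨y * x, K.mul_mem hy hx, by
    rw [Module.End.mul_apply, hx3, hy2]⟩
  obtain ⟨z, hz, hz2⟩ := mem_orb_symm htrans hconj hv₂0 hv₃0 h1
  have h2 : v₁ ∈ orb K v₂ := ⟨z - 1, K.sub_mem hz K.one_mem, by
    rw [LinearMap.sub_apply, hz2, Module.End.one_apply, add_sub_cancel_right]⟩
  obtain ⟨t, ht, ht2⟩ := mem_orb_symm htrans hconj hv₁0 hv₂0 h2
  apply hxv₂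
  rw [← ht2, ← Module.End.mul_apply, hKc x hx t ht, Module.End.mul_apply, hv₁, map_zero]

theorem isDomain_of_inj [Nontrivial V] (hKinj : ∀ f ∈ K, f ≠ 0 → Function.Injective f) :
    IsDomain K := by
  haveI : NoZeroDivisors K := by
    refine ⟨?_⟩
    intro a b hab
    by_cases ha : a = 0
    · exact Or.inl ha
    · right
      have hinj := hKinj a a.2 (fun h => ha (Subtype.ext h))
      apply Subtype.ext
      ext v
      apply hinj
      have : (a.1 * b.1) v = 0 := by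
        have := congrArg Subtype.val hab
        change a.1 * b.1 = 0 at this
        rw [this]; rfl
      rw [Module.End.mul_apply] at this
      rw [this]
      simp
  exact NoZeroDivisors.to_isDomain _

theorem finite_end [Finite V] : Finite (Module.End (ZMod p) V) :=
  Finite.of_injective (fun f : Module.End (ZMod p) V => (f : V → V)) DFunLike.coe_injective

/-- conjugation by `g` as a ring automorphism of `K`. -/
def conjK (g : V ≃ₗ[ZMod p] V)
    (h1 : ∀ f ∈ K, g.toLinearMap * f * g.symm.toLinearMap ∈ K)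
    (h2 : ∀ f ∈ K, g.symm.toLinearMap * f * g.toLinearMap ∈ K) : K ≃+* K where
  toFun f := ⟨_, h1 f f.2⟩
  invFun f := ⟨_, h2 f f.2⟩
  left_inv := by
    intro f
    apply Subtype.ext
    ext v
    simp
  right_inv := by
    intro f
    apply Subtype.ext
    ext v
    simp
  map_mul' := by
    intro a b
    apply Subtype.ext
    ext v
    simp
  map_add' := by
    intro a b
    apply Subtype.ext
    ext v
    simp

theorem semilin_of_card [Finite V] [Nontrivial V]
    (hKinj : ∀ f ∈ K, f ≠ 0 → Function.Injective f)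
    (hconj : ∀ g : G, ∀ f ∈ K, (ρ g).toLinearMap * f * (ρ g).symm.toLinearMap ∈ K)
    (hcard : Nat.card K = Nat.card V) : Semilin ρ := by
  classical
  haveI := finite_end (p := p) (V := V)
  haveI := isDomain_of_inj hKinj
  obtain ⟨F, iF, iFt, ⟨ψ⟩⟩ := exists_field_model K
  obtain ⟨v₀, hv₀⟩ := exists_ne (0 : V)
  let ev : K →+ V :=
    { toFun := fun f => f.1 v₀
      map_zero' := rfl
      map_add' := fun a b => rfl }
  have hev_inj : Function.Injective ev := by
    rw [injective_iff_map_eq_zero]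
    intro f hf
    by_contra hne
    have hinj := hKinj f f.2 (fun h => hne (Subtype.ext h))
    exact hv₀ (hinj (by rw [map_zero]; exact hf))
  have hev_bij : Function.Bijective ev :=
    (Nat.bijective_iff_injective_and_card ev).mpr ⟨hev_inj, hcard⟩
  let evE : K ≃+ V := AddEquiv.ofBijective ev hev_bij
  have hevE : ∀ f : K, evE f = f.1 v₀ := fun f => rfl
  refine ⟨F, iF, iFt, evE.symm.trans ψ.symm.toAddEquiv, ?_⟩
  intro g
  have h1 := hconj g
  have h2 : ∀ f ∈ K, (ρ g).symm.toLinearMap * f * (ρ g).toLinearMap ∈ K := by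
    intro f hf
    have := hconj g⁻¹ f hf
    rw [map_inv] at this
    exact this
  obtain ⟨c, hc⟩ := hev_bij.2 (ρ g v₀)
  refine ⟨ψ.symm c, ψ.trans ((conjK (ρ g) h1 h2).trans ψ.symm), ?_⟩
  intro v
  obtain ⟨f, rfl⟩ := evE.surjective v
  have key : ρ g (evE f) = evE (conjK (ρ g) h1 h2 f * c) := by
    rw [hevE, hevE]
    change _ = ρ g (f.1 ((ρ g).symm (c.1 v₀)))
    have : c.1 v₀ = ρ g v₀ := hc
    rw [this, LinearEquiv.symm_apply_apply]
  rw [key]
  simp only [AddEquiv.trans_apply, AddEquiv.symm_apply_apply, RingEquiv.trans_apply]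
  change ψ.symm _ = _ * ψ.symm (conjK (ρ g) h1 h2 (ψ (ψ.symm f)))
  rw [map_mul, RingEquiv.apply_symm_apply, mul_comm]

theorem card_K [Finite V] : Nat.card K = p ^ Module.finrank (ZMod p) K := by
  haveI := finite_end (p := p) (V := V)
  rw [Module.natCard_eq_pow_finrank (K := ZMod p) (V := K), Nat.card_zmod]

theorem card_V [Finite V] : Nat.card V = p ^ Module.finrank (ZMod p) V := by
  rw [Module.natCard_eq_pow_finrank (K := ZMod p) (V := V), Nat.card_zmod]

end general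

end Cfsg.Agent.Lib.Helper53.Hup
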