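import Mathlib
import Cfsg.Agent.Lib.Helper53.Hup.DC

/-!
# The field `KK ρ A` of an abelian normal subgroup `A`
-/

set_option autoImplicit false
set_option linter.style.haveILetI false

namespace Cfsg.Agent.Lib.Helper53.Hup

open Cfsg.Agent.Lib.Helper53.Semi Subgroup

universe u

theorem card_pow_of_domain (R : Type*) [Ring R] [Finite R] [IsDomain R] (M : Type*)
    [AddCommGroup M] [Module R M] [Finite M] : ∃ m, Nat.card M = Nat.card R ^ m := by
  classical
  haveI := Fintype.ofFinite R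
  letI := Fintype.divisionRingOfIsDomain R
  exact ⟨_, Module.natCard_eq_pow_finrank (K := R) (V := M)⟩

variable {p : ℕ} [Fact p.Prime] {V : Type u} [AddCommGroup V] [Module (ZMod p) V]
  {G : Type*} [Group G] (ρ : G →* (V ≃ₗ[ZMod p] V))

/-- the field attached to `A`. -/
def KK (A : Subgroup G) : Subalgebra (ZMod p) (Module.End (ZMod p) V) := dc (ρ '' (A : Set G))

variable {ρ} {A : Subgroup G}

theorem KK_comm : ∀ f ∈ KK ρ A, ∀ h ∈ KK ρ A, f * h = h * f := dc_comm _

theorem mem_KK (hAc : ∀ a ∈ A, ∀ b ∈ A, a * b = b * a) {a : G} (ha : a ∈ A) :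
    (ρ a).toLinearMap ∈ KK ρ A := by
  refine mem_dc_of_mem (S := ρ '' (A : Set G)) ?_ ⟨a, ha, rfl⟩
  rintro _ ⟨a, ha, rfl⟩ _ ⟨b, hb, rfl⟩
  rw [← map_mul, ← map_mul, hAc a ha b hb]

theorem KK_conj [hA : A.Normal] (g : G) :
    ∀ f ∈ KK ρ A, (ρ g).toLinearMap * f * (ρ g).symm.toLinearMap ∈ KK ρ A := by
  intro f hf
  apply conj_mem_dc (ρ g) _ _ hf
  · rintro _ ⟨a, ha, rfl⟩
    exact ⟨g * a * g⁻¹, hA.conj_mem a ha g, by simp⟩
  · rintro _ ⟨a, ha, rfl⟩
    refine ⟨g⁻¹ * a * g, ?_, by simp⟩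
    have := hA.conj_mem a ha g⁻¹
    rwa [inv_inv] at this

theorem KK_commute {g : G} (hg : g ∈ centralizer (A : Set G)) :
    ∀ f ∈ KK ρ A, (ρ g).toLinearMap * f = f * (ρ g).toLinearMap := by
  intro f hf
  refine (hf.2 _ ?_).symm
  rw [toLinearMap_mem_cent_iff]
  rintro _ ⟨a, ha, rfl⟩
  rw [← map_mul, ← map_mul, (mem_centralizer_iff.mp hg a ha)]

theorem KK_inj [Finite V] [A.Normal] (htrans : Trans ρ) :
    ∀ f ∈ KK ρ A, f ≠ 0 → Function.Injective f :=
  inj_of_trans KK_comm htrans KK_conj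

theorem exists_dim [Finite V] [Nontrivial V] [A.Normal] (htrans : Trans ρ) :
    ∃ m, Module.finrank (ZMod p) V = Module.finrank (ZMod p) (KK ρ A) * m := by
  haveI := finite_end (p := p) (V := V)
  haveI := isDomain_of_inj (KK_inj (A := A) htrans)
  obtain ⟨m, hm⟩ := card_pow_of_domain (KK ρ A) V
  refine ⟨m, ?_⟩
  rw [card_V (p := p) (V := V), card_K, ← pow_mul] at hm
  exact Nat.pow_right_injective (Fact.out : p.Prime).two_le hm

theorem semilin_of_finrank [Finite V] [Nontrivial V] [A.Normal] (htrans : Trans ρ)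
    (h : Module.finrank (ZMod p) (KK ρ A) = Module.finrank (ZMod p) V) : Semilin ρ :=
  semilin_of_card (KK_inj (A := A) htrans) KK_conj (by rw [card_K, card_V (p := p) (V := V), h])

theorem semilin_of_irr [Finite V] [Nontrivial V] [hA : A.Normal]
    (hAc : ∀ a ∈ A, ∀ b ∈ A, a * b = b * a)
    (hirr : ∀ W : Submodule (ZMod p) V, (∀ a ∈ A, ∀ v ∈ W, ρ a v ∈ W) → W = ⊥ ∨ W = ⊤) :
    Semilin ρ := by
  obtain ⟨F, iF, iFt, e, he⟩ := Cfsg.Agent.Lib.Helper53.Semi.main (ρ '' (A : Set G))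
    (by
      rintro _ ⟨a, ha, rfl⟩ _ ⟨b, hb, rfl⟩
      rw [← map_mul, ← map_mul, hAc a ha b hb])
    (by
      intro W hW
      exact hirr W fun a ha v hv => hW _ ⟨a, ha, rfl⟩ v hv)
  refine ⟨F, iF, iFt, e, fun g => he (ρ g) ?_ ?_⟩
  · rintro _ ⟨a, ha, rfl⟩
    exact ⟨g * a * g⁻¹, hA.conj_mem a ha g, by simp⟩
  · rintro _ ⟨a, ha, rfl⟩
    refine ⟨g⁻¹ * a * g, ?_, by simp⟩
    have := hA.conj_mem a ha g⁻¹
    rwa [inv_inv] at this

/-- `A` embeds in the units of a finite field of the same order as `KK ρ A`. -/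
theorem exists_embedding [Finite V] [Nontrivial V] [A.Normal] (htrans : Trans ρ)
    (hρ : Function.Injective ρ) (hAc : ∀ a ∈ A, ∀ b ∈ A, a * b = b * a) :
    ∃ (F : Type) (_ : Field F) (_ : Fintype F) (f : A →* Fˣ), Function.Injective f ∧
      Nat.card F = p ^ Module.finrank (ZMod p) (KK ρ A) := by
  haveI := finite_end (p := p) (V := V)
  haveI := isDomain_of_inj (KK_inj (A := A) htrans)
  obtain ⟨F, iF, iFt, ⟨ψ⟩⟩ := exists_field_model (KK ρ A)
  let f₀ : A →* KK ρ A :=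
    { toFun := fun a => ⟨(ρ a).toLinearMap, mem_KK hAc a.2⟩
      map_one' := by
        apply Subtype.ext
        ext v
        simp
      map_mul' := by
        intro a b
        apply Subtype.ext
        ext v
        simp }
  have hf₀ : Function.Injective f₀ := by
    intro a b hab
    have h1 : (ρ a).toLinearMap = (ρ b).toLinearMap := congrArg Subtype.val hab
    have h2 : ρ a = ρ b := LinearEquiv.toLinearMap_injective h1
    exact Subtype.ext (hρ h2)
  let f₁ : A →* F := ψ.symm.toMonoidHom.comp f₀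
  have hf₁ : Function.Injective f₁ := ψ.symm.injective.comp hf₀
  refine ⟨F, iF, iFt, f₁.toHomUnits, ?_, ?_⟩
  · intro a b hab
    apply hf₁
    have := congrArg Units.val hab
    simpa using this
  · rw [Nat.card_congr ψ.toEquiv, card_K]

theorem isCyclic_A [Finite V] [Nontrivial V] [A.Normal] (htrans : Trans ρ)
    (hρ : Function.Injective ρ) (hAc : ∀ a ∈ A, ∀ b ∈ A, a * b = b * a) : IsCyclic A := by
  obtain ⟨F, iF, iFt, f, hf, -⟩ := exists_embedding htrans hρ hAc
  exact isCyclic_of_injective f hf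

theorem card_A_dvd [Finite V] [Nontrivial V] [A.Normal] (htrans : Trans ρ)
    (hρ : Function.Injective ρ) (hAc : ∀ a ∈ A, ∀ b ∈ A, a * b = b * a) :
    Nat.card A ∣ p ^ Module.finrank (ZMod p) (KK ρ A) - 1 := by
  obtain ⟨F, iF, iFt, f, hf, hc⟩ := exists_embedding htrans hρ hAc
  rw [← hc, ← Nat.card_units]
  exact card_dvd_of_injective f hf

theorem le_center_of_finrank_one (hρ : Function.Injective ρ)
    (hAc : ∀ a ∈ A, ∀ b ∈ A, a * b = b * a)
    (h : Module.finrank (ZMod p) (KK ρ A) = 1) : A ≤ center G := by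
  have hbot : KK ρ A = ⊥ := Subalgebra.eq_bot_of_finrank_one h
  intro a ha
  have h1 := mem_KK (ρ := ρ) hAc ha
  rw [hbot, Algebra.mem_bot] at h1
  obtain ⟨c, hc⟩ := h1
  rw [mem_center_iff]
  intro g
  apply hρ
  rw [map_mul, map_mul]
  apply LinearEquiv.toLinearMap_injective
  have e : ∀ x y : V ≃ₗ[ZMod p] V, (x * y).toLinearMap = x.toLinearMap * y.toLinearMap :=
    fun _ _ => rfl
  rw [e, e, ← hc]
  exact (Algebra.commutes c _).symm

theorem finrank_KK_pos [Finite V] [Nontrivial V] : 0 < Module.finrank (ZMod p) (KK ρ A) := by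
  haveI := finite_end (p := p) (V := V)
  haveI : Nontrivial (KK ρ A) := inferInstance
  exact Module.finrank_pos

end Cfsg.Agent.Lib.Helper53.Hup
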