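import Mathlib
import Cfsg.Agent.Lib.Helper53.Hup.Defs
import Cfsg.Agent.Lib.Helper53.Hup.Semi
import Cfsg.Agent.Lib.Helper59.HupGT2
import Cfsg.Agent.Lib.Helper59.HupGT3
import Cfsg.Agent.Lib.Helper59.HupGT5
import Cfsg.Agent.Lib.Helper12.HupGT4
import Cfsg.Agent.Lib.Helper12.HupLA2
import Cfsg.Agent.Lib.Helper12.HupLA3
import Cfsg.Agent.Lib.Helper12.HupCT
import Cfsg.Agent.Lib.Helper8.HupNT

/-!
# Huppert's theorem: the pieces proved by helpers 8, 12, 59, under uniform names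
-/

set_option autoImplicit false
set_option linter.style.haveILetI false

namespace Cfsg.Agent.Lib.Helper53.Hup
open Subgroup

section GT
variable {G : Type*} [Group G]

theorem SympPair.square [Finite G] {A N : Subgroup G} (h : SympPair A N) (hA : IsCyclic A) :
    ∃ E : ℕ, A.relIndex N = E ^ 2 :=
  Cfsg.Agent.Lib.Helper59.HupGT2.SympPair.square h hA

theorem SympPair.prime_dvd [Finite G] {A N : Subgroup G} (h : SympPair A N) {r : ℕ}
    (hr : r.Prime) (hd : r ∣ A.relIndex N) : r ∣ Nat.card A :=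
  Cfsg.Agent.Lib.Helper59.HupGT2.SympPair.prime_dvd h hr hd

theorem SympPair.centralizer_le {A N : Subgroup G} (h : SympPair A N) {x : G} {s : ℕ}
    (hxs : x ^ s = 1) (hxN : ∀ l ∈ N, x * l * x⁻¹ ∈ N) (hxA : ∀ a ∈ A, x * a = a * x)
    (hsA : ∀ a ∈ A, a ^ s = 1 → a = 1)
    (hCx : ∀ l ∈ N, ∀ l' ∈ N, x * l = l * x → x * l' = l' * x → l * l' = l' * l) :
    ∀ l ∈ N, x * l = l * x → l ∈ A :=
  Cfsg.Agent.Lib.Helper59.HupGT3.SympPair.centralizer_le h hxs hxN hxA hsA hCx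

theorem exists_symp_prime [Finite G] (hsol : Group.IsSolvable G) (A : Subgroup G) [A.Normal]
    (hAc : IsMulCommutative A)
    (hAmax : ∀ B : Subgroup G, B.Normal → IsMulCommutative B → A ≤ B → B = A)
    (hne : centralizer (A : Set G) ≠ A) :
    ∃ N : Subgroup G, N.Normal ∧ N ≤ centralizer (A : Set G) ∧ SympPair A N ∧
      ∃ r d : ℕ, r.Prime ∧ 0 < d ∧ A.relIndex N = r ^ d :=
  Cfsg.Agent.Lib.Helper12.HupGT4.exists_symp_prime hsol A hAc hAmax hne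

theorem exists_symp_max [Finite G] (hsol : Group.IsSolvable G) (A : Subgroup G) [A.Normal]
    (hAc : IsMulCommutative A)
    (hAmax : ∀ B : Subgroup G, B.Normal → IsMulCommutative B → A ≤ B → B = A) :
    ∃ L : Subgroup G, L.Normal ∧ L ≤ centralizer (A : Set G) ∧ SympPair A L ∧
      centralizer (A : Set G) ⊓ centralizer (L : Set G) ≤ A :=
  Cfsg.Agent.Lib.Helper12.HupGT4.exists_symp_max hsol A hAc hAmax

theorem index_dvd_24 [Finite G] (A L : Subgroup G) [A.Normal] [L.Normal] (hA : IsCyclic A)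
    (hAZ : A ≤ center G) (h : SympPair A L) (h4 : A.relIndex L = 4)
    (hC : centralizer (L : Set G) ≤ A) : A.index ∣ 24 :=
  Cfsg.Agent.Lib.Helper59.HupGT5.index_dvd_24 A L hA hAZ h h4 hC

theorem card_modEq_of_conj [Finite G] {s : ℕ} [Fact s.Prime] (x : G) (hx : x ^ s = 1)
    (X : Subgroup G) (hX : ∀ l ∈ X, x * l * x⁻¹ ∈ X) :
    Nat.card X ≡ Nat.card (X ⊓ centralizer {x} : Subgroup G) [MOD s] :=
  Cfsg.Agent.Lib.Helper12.HupCT.card_modEq_of_conj x hx X hX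

theorem card_dvd_of_free [Finite G] (S X Y : Subgroup G) (hYX : Y ≤ X)
    (hSX : ∀ y ∈ S, ∀ l ∈ X, y * l * y⁻¹ ∈ X) (hSY : ∀ y ∈ S, ∀ l ∈ Y, y * l * y⁻¹ ∈ Y)
    (hfree : ∀ y ∈ S, y ≠ 1 → ∀ l ∈ X, y * l = l * y → l ∈ Y) :
    Nat.card S ∣ Nat.card X - Nat.card Y :=
  Cfsg.Agent.Lib.Helper12.HupCT.card_dvd_of_free S X Y hYX hSX hSY hfree

end GT

section NT

theorem PPD.succ_le {p n s : ℕ} (hp : p.Prime) (hn : 0 < n) (h : PPD p n s) : n + 1 ≤ s :=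
  Cfsg.Agent.Lib.Helper8.HupNT.PPD.succ_le hp hn h

theorem nt_sq {s E n : ℕ} (hs : s.Prime) (hd : s ∣ E ^ 2 - 1) (hE : 2 ≤ E) (hEn : E ≤ n)
    (hns : n + 1 ≤ s) : E = n ∧ s = n + 1 :=
  Cfsg.Agent.Lib.Helper8.HupNT.nt_sq hs hd hE hEn hns

theorem nt_final {p n e : ℕ} (hp : p.Prime) (hp2 : p ≠ 2) (hn : n = 2 ^ e) (hn3 : 3 ≤ n)
    (hall : ∀ t, PPD p n t → t = n + 1) (hsq : ¬ (n + 1) ^ 2 ∣ p ^ n - 1) : p = 3 ∧ n = 4 :=
  Cfsg.Agent.Lib.Helper8.HupNT.nt_final hp hp2 hn hn3 hall hsq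

end NT

section LA
variable {p : ℕ} [Fact p.Prime] {V : Type*} [AddCommGroup V] [Module (ZMod p) V]

theorem indep [Finite V] (K : Subalgebra (ZMod p) (Module.End (ZMod p) V))
    (hKc : ∀ f ∈ K, ∀ h ∈ K, f * h = h * f)
    (hKinj : ∀ f ∈ K, f ≠ 0 → Function.Injective f)
    {G : Type*} [Group G] [Finite G] (ρ : G →* (V ≃ₗ[ZMod p] V)) (hρ : Function.Injective ρ)
    (A N : Subgroup G) (h : SympPair A N)
    (hAK : ∀ a ∈ A, (ρ a).toLinearMap ∈ K)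
    (hNK : ∀ l ∈ N, ∀ f ∈ K, (ρ l).toLinearMap * f = f * (ρ l).toLinearMap) :
    Nat.card K ^ A.relIndex N ≤ p ^ (Module.finrank (ZMod p) V) ^ 2 :=
  Cfsg.Agent.Lib.Helper12.HupLA2.indep K hKc hKinj ρ hρ A N h hAK hNK

theorem ppd_irr [Finite V] {s : ℕ} (hs : PPD p (Module.finrank (ZMod p) V) s)
    (x : V ≃ₗ[ZMod p] V) (hx : orderOf x = s) (W : Submodule (ZMod p) V)
    (hW : ∀ v ∈ W, x v ∈ W) : W = ⊥ ∨ W = ⊤ :=
  Cfsg.Agent.Lib.Helper12.HupLA3.ppd_irr hs x hx W hW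

theorem ppd_commute [Finite V] {s : ℕ} (hs : PPD p (Module.finrank (ZMod p) V) s)
    (x : V ≃ₗ[ZMod p] V) (hx : orderOf x = s)
    (K : Subalgebra (ZMod p) (Module.End (ZMod p) V))
    (hk : Module.finrank (ZMod p) K < Module.finrank (ZMod p) V)
    (hconj : ∀ f ∈ K, x.toLinearMap * f * x.symm.toLinearMap ∈ K) :
    ∀ f ∈ K, x.toLinearMap * f = f * x.toLinearMap :=
  Cfsg.Agent.Lib.Helper12.HupLA3.ppd_commute hs x hx K hk hconj

theorem comm_of_irr [Finite V] [Nontrivial V] (x : V ≃ₗ[ZMod p] V)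
    (hirr : ∀ W : Submodule (ZMod p) V, (∀ v ∈ W, x v ∈ W) → W = ⊥ ∨ W = ⊤)
    (f h : Module.End (ZMod p) V) (hf : x.toLinearMap * f = f * x.toLinearMap)
    (hh : x.toLinearMap * h = h * x.toLinearMap) : f * h = h * f := by
  have hirr' : ∀ W : Submodule (ZMod p) V,
      (∀ s ∈ ({x} : Set (V ≃ₗ[ZMod p] V)), ∀ v ∈ W, s v ∈ W) → W = ⊥ ∨ W = ⊤ := by
    intro W hW
    exact hirr W (fun v hv => hW x rfl v hv)
  haveI : Finite (Module.End (ZMod p) V) :=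
    Finite.of_injective (fun f : Module.End (ZMod p) V => (f : V → V)) DFunLike.coe_injective
  haveI := Semi.isDomain_cent hirr'
  have hfld := Finite.isDomain_to_isField (Semi.cent ({x} : Set (V ≃ₗ[ZMod p] V)))
  have mem : ∀ g : Module.End (ZMod p) V, x.toLinearMap * g = g * x.toLinearMap →
      g ∈ Semi.cent ({x} : Set (V ≃ₗ[ZMod p] V)) := by
    intro g hg s hs v
    rw [Set.mem_singleton_iff] at hs
    rw [hs]
    exact congrArg (fun φ : Module.End (ZMod p) V => φ v) hg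
  have := hfld.mul_comm ⟨f, mem f hf⟩ ⟨h, mem h hh⟩
  exact congrArg Subtype.val this

end LA

end Cfsg.Agent.Lib.Helper53.Hup
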